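import Cfsg.Agent.Sourour.Regular
import Cfsg.Agent.OrderBound.HalfDegree

/-!
# Every non-scalar map of determinant one is a product of two regular unipotents
-/

set_option autoImplicit false

namespace CfsgLib.Sourour

open Module Polynomial
open scoped Matrix

universe u v

variable {K : Type u} [Field K] {V : Type v} [AddCommGroup V] [Module K V] [FiniteDimensional K V]

omit [FiniteDimensional K V] in
theorem exists_dual {m : Type*} {b : m → V} (hb : LinearIndependent K b) (c : m → K) :
    ∃ φ : V →ₗ[K] K, ∀ i, φ (b i) = c i := by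
  obtain ⟨φ, hφ⟩ := LinearMap.exists_extend ((Finsupp.linearCombination K c).comp hb.repr)
  refine ⟨φ, fun i => ?_⟩
  have h := LinearMap.congr_fun hφ ⟨b i, Submodule.subset_span ⟨i, rfl⟩⟩
  simp only [LinearMap.comp_apply, Submodule.subtype_apply] at h
  rw [h, hb.repr_eq_single i _ rfl]
  simp

theorem exists_avoid (hK : 4 ≤ Cardinal.mk K) (s : Finset K) (hs : s.card ≤ 3) : ∃ x, x ∉ s := by
  classical
  by_contra h
  push Not at h
  have : Cardinal.mk K ≤ (s.card : Cardinal) := by
    rw [← Cardinal.mk_coe_finset]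
    exact Cardinal.mk_le_of_injective (f := fun x => (⟨x, h x⟩ : s)) fun a b he => congrArg Subtype.val he
  have h4 := hK.trans this
  norm_cast at h4
  omega

omit [FiniteDimensional K V] in
/-- A subspace and its complement avoiding two proper subspaces. -/
theorem exists_notMem_two (U₁ U₂ : Submodule K V) (h1 : U₁ ≠ ⊤) (h2 : U₂ ≠ ⊤) :
    ∃ x, x ∉ U₁ ∧ x ∉ U₂ := by
  obtain ⟨a, -, ha⟩ := SetLike.exists_of_lt (lt_top_iff_ne_top.2 h1)
  obtain ⟨b, -, hb⟩ := SetLike.exists_of_lt (lt_top_iff_ne_top.2 h2)
  by_cases hab : a ∈ U₂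
  swap
  · exact ⟨a, ha, hab⟩
  by_cases hba : b ∈ U₁
  swap
  · exact ⟨b, hba, hb⟩
  exact ⟨a + b, fun h => ha (by simpa using U₁.sub_mem h hba),
    fun h => hb (by simpa using U₂.sub_mem h hab)⟩

omit [FiniteDimensional K V] in
/-- With at least four scalars four proper subspaces do not cover. -/
theorem exists_notMem_four (hK : 4 ≤ Cardinal.mk K) (U₁ U₂ U₃ U₄ : Submodule K V) (h1 : U₁ ≠ ⊤)
    (h2 : U₂ ≠ ⊤) (h3 : U₃ ≠ ⊤) (h4 : U₄ ≠ ⊤) : ∃ x, x ∉ U₁ ∧ x ∉ U₂ ∧ x ∉ U₃ ∧ x ∉ U₄ := by
  classical
  have step : ∀ (a : V) (U : Submodule K V) (b : V), b ∉ U → ∃ s : Finset K, s.card ≤ 1 ∧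
      ∀ t ∉ s, a + t • b ∉ U := by
    intro a U b hb
    by_cases h : ∃ t : K, a + t • b ∈ U
    · obtain ⟨t, ht⟩ := h
      refine ⟨{t}, by simp, fun r hr hr' => ?_⟩
      rw [Finset.mem_singleton] at hr
      refine hb ((U.smul_mem_iff (sub_ne_zero.2 hr)).1 ?_)
      have := U.sub_mem hr' ht
      rwa [add_sub_add_left_eq_sub, ← sub_smul] at this
    · push Not at h
      exact ⟨∅, by simp, fun t _ => h t⟩
  obtain ⟨x, hx1, hx2⟩ := exists_notMem_two U₁ U₂ h1 h2
  -- avoid three of them
  obtain ⟨y, hy1, hy2, hy3⟩ : ∃ y, y ∉ U₁ ∧ y ∉ U₂ ∧ y ∉ U₃ := by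
    by_cases hx3 : x ∈ U₃
    swap
    · exact ⟨x, hx1, hx2, hx3⟩
    obtain ⟨b, -, hb⟩ := SetLike.exists_of_lt (lt_top_iff_ne_top.2 h3)
    obtain ⟨s₁, hs₁, k₁⟩ := step b U₁ x hx1
    obtain ⟨s₂, hs₂, k₂⟩ := step b U₂ x hx2
    obtain ⟨t, ht⟩ := exists_avoid hK (s₁ ∪ s₂) ((Finset.card_union_le _ _).trans (by omega))
    rw [Finset.mem_union, not_or] at ht
    exact ⟨b + t • x, k₁ t ht.1, k₂ t ht.2, fun h => hb (by simpa using U₃.sub_mem h (U₃.smul_mem t hx3))⟩
  by_cases hy4 : y ∈ U₄
  swap
  · exact ⟨y, hy1, hy2, hy3, hy4⟩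
  obtain ⟨b, -, hb⟩ := SetLike.exists_of_lt (lt_top_iff_ne_top.2 h4)
  obtain ⟨s₁, hs₁, k₁⟩ := step b U₁ y hy1
  obtain ⟨s₂, hs₂, k₂⟩ := step b U₂ y hy2
  obtain ⟨s₃, hs₃, k₃⟩ := step b U₃ y hy3
  obtain ⟨t, ht⟩ := exists_avoid hK (s₁ ∪ s₂ ∪ s₃) ((Finset.card_union_le _ _).trans
    (by have := Finset.card_union_le s₁ s₂; omega))
  rw [Finset.mem_union, Finset.mem_union, not_or, not_or] at ht
  exact ⟨b + t • y, k₁ t ht.1.1, k₂ t ht.1.2, k₃ t ht.2,
    fun h => hb (by simpa using U₄.sub_mem h (U₄.smul_mem t hy4))⟩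

/-- The compression of `S` to `ker φ` along `S v`. -/
def compr (S : Module.End K V) (v : V) (φ : V →ₗ[K] K) (hSv : φ (S v) = 1) :
    Module.End K (LinearMap.ker φ) :=
  proj φ (S v) hSv ∘ₗ S ∘ₗ (LinearMap.ker φ).subtype

theorem coe_compr (S : Module.End K V) (v : V) (φ : V →ₗ[K] K) (hSv : φ (S v) = 1)
    (z : LinearMap.ker φ) : (compr S v φ hSv z : V) = S z - φ (S z) • S v := rfl

/-- The requirements on a map. -/
def Adm (S : Module.End K V) : Prop :=
  2 ≤ finrank K V → (∀ c : K, S ≠ c • 1) ∧ (S - 1) * (S - 1) ≠ 0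

theorem det_compr (S : Module.End K V) (v : V) (φ : V →ₗ[K] K) (hv : φ v = 1)
    (hSv : φ (S v) = 1) : LinearMap.det S = LinearMap.det (compr S v φ hSv) := by
  obtain ⟨c, hc⟩ : ∃ c : LinearMap.ker φ, (c : V) = S v - v :=
    ⟨⟨S v - v, by rw [LinearMap.mem_ker, map_sub, hv, hSv, sub_self]⟩, rfl⟩
  let S₀ := ext φ v hv (compr S v φ hSv) v
  let g : V →ₗ[K] K := φ ∘ₗ S ∘ₗ (LinearMap.ker φ).subtype ∘ₗ proj φ v hv
  have hfac : S = LinearMap.transvection φ (c : V) ∘ₗ S₀ ∘ₗ LinearMap.transvection g v := by
    refine ext_eq φ v hv (fun z => ?_) ?_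
    · simp only [LinearMap.comp_apply, LinearMap.transvection.apply, g, proj_coe, map_add, map_smul,
        S₀, ext_coe, ext_self, coe_compr, Submodule.subtype_apply]
      simp only [map_sub, map_smul, hSv, hv, smul_eq_mul, mul_one, sub_self, zero_smul, add_zero, hc]
      module
    · simp only [LinearMap.comp_apply, LinearMap.transvection.apply, g, proj_self, map_zero,
        zero_smul, add_zero, S₀, ext_self, hv, one_smul, hc, add_sub_cancel]
  conv_lhs => rw [hfac]
  rw [LinearMap.det_comp, LinearMap.det_comp, LinearMap.transvection.det,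
    LinearMap.transvection.det, LinearMap.mem_ker.1 c.2]
  have hg : g v = 0 := by simp [g, proj_self]
  have he : LinearMap.ker φ ≤ (LinearMap.ker φ).comap S₀ := fun z hz => by
    rw [Submodule.mem_comap, show S₀ z = ext φ v hv (compr S v φ hSv) v z from rfl,
      show z = ((⟨z, hz⟩ : LinearMap.ker φ) : V) from rfl, ext_coe]
    exact Submodule.coe_mem _
  have hq : (LinearMap.ker φ).mapQ (LinearMap.ker φ) S₀ he = LinearMap.id := by
    refine Submodule.linearMap_qext _ (LinearMap.ext fun x => ?_)
    simp only [LinearMap.comp_apply, Submodule.mkQ_apply, Submodule.mapQ_apply, LinearMap.id_apply,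
      Submodule.Quotient.eq, LinearMap.mem_ker, map_sub]
    show φ (ext φ v hv _ v x) - φ x = 0
    rw [ext_apply, map_add, map_smul, hv, smul_eq_mul, mul_one, LinearMap.mem_ker.1 (Submodule.coe_mem _),
      add_zero, sub_self]
  have hr : S₀.restrict he = compr S v φ hSv := by
    refine LinearMap.ext fun z => Subtype.ext ?_
    exact ext_coe φ v hv _ v z
  rw [LinearMap.det_eq_det_mul_det _ S₀ he, hq, LinearMap.det_id, hr, hg]
  simp

theorem trace_compr (S : Module.End K V) (v : V) (φ : V →ₗ[K] K) (hv : φ v = 1)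
    (hSv : φ (S v) = 1) (hsq : (compr S v φ hSv - 1) * (compr S v φ hSv - 1) = 0) :
    LinearMap.trace K V S = φ (S (S v)) + (finrank K V : K) - 1 := by
  let M : Module.End K V :=
    S - (φ ∘ₗ S).smulRight (S v) - (LinearMap.id - φ.smulRight v)
  have hM : M = (LinearMap.ker φ).subtype ∘ₗ (compr S v φ hSv - 1) ∘ₗ proj φ v hv := by
    refine ext_eq φ v hv (fun z => ?_) ?_
    · simp [M, proj_coe, coe_compr, LinearMap.mem_ker.1 z.2]
    · simp [M, proj_self, hv, hSv]
  have hnil : IsNilpotent M := ⟨2, LinearMap.ext fun x => by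
    rw [pow_two, Module.End.mul_apply, hM]
    simp only [LinearMap.comp_apply, Submodule.subtype_apply, proj_coe]
    rw [← Module.End.mul_apply, hsq]
    simp⟩
  have h := (LinearMap.isNilpotent_trace_of_isNilpotent hnil).eq_zero
  simp only [M, map_sub, LinearMap.trace_smulRight, LinearMap.comp_apply, LinearMap.trace_id, hv] at h
  linear_combination h

/-- Polynomial relation of degree two. -/
theorem quadratic_of_dependent (S : Module.End K V) (hns : ∀ c : K, S ≠ c • 1)
    (hdep : ∀ x, ¬ LinearIndependent K ![x, S x, S (S x)]) :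
    ∃ a b : K, S * S = a • S + b • 1 := by
  obtain ⟨x, hx⟩ := CfsgLib.OrderBound.exists_annihilator_eq S
  obtain ⟨g, hg, i, hi⟩ := Fintype.not_linearIndependent_iff.1 (hdep x)
  simp only [Fin.sum_univ_three, Matrix.cons_val_zero, Matrix.cons_val_one, Matrix.cons_val] at hg
  let h : K[X] := C (g 0) + C (g 1) * X + C (g 2) * (X * X)
  have hev : aeval S h = g 0 • (1 : Module.End K V) + g 1 • S + g 2 • (S * S) := by
    simp only [h, map_add, map_mul, aeval_C, aeval_X, Algebra.algebraMap_eq_smul_one, smul_mul_assoc,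
      one_mul]
  have h0 : aeval S h = 0 := by
    obtain ⟨r, hr⟩ := (hx h).1 (by rw [hev]; simpa [Module.End.mul_apply] using hg)
    rw [hr, map_mul, minpoly.aeval, zero_mul]
  rw [hev] at h0
  by_cases h2 : g 2 = 0
  · exfalso
    rw [h2, zero_smul, add_zero] at h0
    by_cases h1 : g 1 = 0
    · rw [h1, zero_smul, add_zero] at h0
      have hg0 : g 0 ≠ 0 := by
        intro hg0
        fin_cases i <;> simp_all
      refine hns 0 (LinearMap.ext fun y => ?_)
      have := LinearMap.congr_fun h0 y
      simp [hg0] at this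
      rw [this]; simp
    · refine hns (-(g 0) / g 1) ?_
      refine (smul_right_injective _ h1).eq_iff.1 ?_
      simp only [smul_smul]
      rw [mul_div_cancel₀ _ h1, neg_smul]
      exact eq_neg_of_add_eq_zero_right h0
  · refine ⟨-(g 1) / g 2, -(g 0) / g 2, (smul_right_injective _ h2).eq_iff.1 ?_⟩
    simp only [smul_add, smul_smul]
    rw [mul_div_cancel₀ _ h2, mul_div_cancel₀ _ h2]
    linear_combination (norm := module) h0

/-- The choice of the first vector when some vector generates a three-dimensional cyclic space. -/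
theorem choose_vector (hK : 4 ≤ Cardinal.mk K) (S : Module.End K V) (hS : Function.Injective S)
    (u : V →ₗ[K] K) (hu : u ≠ 0)
    (w : V) (hex : ∃ x, LinearIndependent K ![x, S x, S (S x)]) :
    ∃ v, LinearIndependent K ![v, S v, S (S v)] ∧ u v ≠ 0 ∧ ∀ c : K, S v - v ≠ c • w := by
  classical
  -- a good vector off `ker u`
  obtain ⟨v, hv, huv⟩ : ∃ v, LinearIndependent K ![v, S v, S (S v)] ∧ u v ≠ 0 := by
    obtain ⟨v0, hv0⟩ := hex
    by_cases hu0 : u v0 = 0
    swap
    · exact ⟨v0, hv0, hu0⟩
    obtain ⟨x, hx⟩ : ∃ x, u x ≠ 0 := by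
      by_contra h; push Not at h; exact hu (LinearMap.ext h)
    by_cases hxg : LinearIndependent K ![x, S x, S (S x)]
    · exact ⟨x, hxg, hx⟩
    have hd := fun i : Fin 3 => exists_dual hv0 (Pi.single i 1)
    choose ψ hψ using hd
    let M : Matrix (Fin 3) (Fin 3) K := Matrix.of fun i j => ψ i (![x, S x, S (S x)] j)
    have hM : M.det = 0 := by
      obtain ⟨g, hg, i, hi⟩ := Fintype.not_linearIndependent_iff.1 hxg
      refine Matrix.exists_mulVec_eq_zero_iff.1 ⟨g, fun h => hi (congrFun h i), funext fun j => ?_⟩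
      have := congrArg (ψ j) hg
      simpa [Matrix.mulVec, dotProduct, M, mul_comm] using this
    obtain ⟨l, hl⟩ := exists_avoid hK ((-M).charpoly.roots.toFinset)
      ((Multiset.toFinset_card_le _).trans
        ((Polynomial.card_roots' _).trans (by rw [Matrix.charpoly_natDegree_eq_dim, Fintype.card_fin])))
    rw [Multiset.mem_toFinset, Polynomial.mem_roots (Matrix.charpoly_monic _).ne_zero,
      Polynomial.IsRoot.def, Matrix.eval_charpoly] at hl
    refine ⟨x + l • v0, Fintype.linearIndependent_iff.2 fun g hg => ?_, by simp [hu0, hx]⟩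
    have hl0 : (Matrix.scalar (Fin 3) l - -M) *ᵥ g = 0 := funext fun j => by
      have := congrArg (ψ j) hg
      simp only [map_sum, map_smul, map_zero, Fin.sum_univ_three, Matrix.cons_val_zero,
        Matrix.cons_val_one, Matrix.cons_val, map_add, smul_eq_mul] at this
      have h0 := hψ j 0
      have h1 := hψ j 1
      have h2 := hψ j 2
      simp only [Matrix.cons_val_zero, Matrix.cons_val_one, Matrix.cons_val] at h0 h1 h2
      rw [h0, h1, h2] at this
      fin_cases j <;>
        simp [Matrix.mulVec, dotProduct, M, Fin.sum_univ_three, Matrix.sub_apply, Pi.single_apply] at this ⊢ <;>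
        linear_combination this
    by_contra hne
    push Not at hne
    obtain ⟨i, hi⟩ := hne
    exact hl (Matrix.exists_mulVec_eq_zero_iff.1 ⟨g, fun h => hi (congrFun h i), hl0⟩)
  by_cases hbad : ∃ c : K, S v - v = c • w
  swap
  · push Not at hbad; exact ⟨v, hv, huv, hbad⟩
  obtain ⟨c, hc⟩ := hbad
  have hcomb : ∀ p q r : K, p • v + q • S v + r • S (S v) = 0 → p = 0 ∧ q = 0 ∧ r = 0 := by
    intro p q r h
    have h9 := Fintype.linearIndependent_iff.1 hv ![p, q, r] (by simpa [Fin.sum_univ_three] using h)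
    exact ⟨h9 0, h9 1, h9 2⟩
  have hc0 : c ≠ 0 := fun h => by
    rw [h, zero_smul] at hc
    have := hcomb (-1) 1 0 (by linear_combination (norm := module) hc)
    simp at this
  -- the candidates `f v`
  suffices h : ∃ f : Module.End K V, Commute f S ∧
      (∀ y ∈ Submodule.span K ({v, S v, S (S v)} : Set V), f y = 0 → y = 0) ∧ u (f v) ≠ 0 ∧
      ∀ e : K, f (S v - v) ≠ e • (S v - v) by
    obtain ⟨f, hcm, hinj, huf, hfw⟩ := h
    have hcm' : ∀ y, S (f y) = f (S y) := fun y => (LinearMap.congr_fun hcm.eq y).symm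
    refine ⟨f v, Fintype.linearIndependent_iff.2 fun g hg => ?_, huf, fun e he => ?_⟩
    · simp only [Fin.sum_univ_three, Matrix.cons_val_zero, Matrix.cons_val_one, Matrix.cons_val] at hg
      have hg' : f (g 0 • v + g 1 • S v + g 2 • S (S v)) = 0 := by
        rw [← hg]; simp only [map_add, map_smul, hcm']
      have h0 := hinj _ ?_ hg'
      · obtain ⟨e0, e1, e2⟩ := hcomb _ _ _ h0
        intro i; fin_cases i <;> assumption
      · exact Submodule.add_mem _ (Submodule.add_mem _
          (Submodule.smul_mem _ _ (Submodule.subset_span (by simp)))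
          (Submodule.smul_mem _ _ (Submodule.subset_span (by simp))))
          (Submodule.smul_mem _ _ (Submodule.subset_span (by simp)))
    · refine hfw (e / c) ?_
      rw [map_sub, ← hcm', he, hc, smul_smul, div_mul_cancel₀ _ hc0]
  have hspan : ∀ y ∈ Submodule.span K ({v, S v, S (S v)} : Set V),
      ∃ p q r : K, y = p • v + q • S v + r • S (S v) := by
    intro y hy
    rw [Submodule.mem_span_triple] at hy
    obtain ⟨p, q, r, h⟩ := hy
    exact ⟨p, q, r, h.symm⟩
  -- invertibility of `S + l`
  by_cases hrel : ∃ p q r : K, S (S (S v)) = p • v + q • S v + r • S (S v)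
  swap
  · push Not at hrel
    obtain ⟨l, hl⟩ := exists_avoid hK {0, -(u (S v)) / u v} (Finset.card_le_two.trans (by omega))
    simp only [Finset.mem_insert, Finset.mem_singleton, not_or] at hl
    refine ⟨S + l • 1, (Commute.refl S).add_left ((Commute.one_left S).smul_left l), fun y hy h0 => ?_, ?_, ?_⟩
    · obtain ⟨p, q, r, rfl⟩ := hspan y hy
      have h1 : (l * p) • v + (p + l * q) • S v + (q + l * r) • S (S v) + r • S (S (S v)) = 0 := by
        simp only [LinearMap.add_apply, LinearMap.smul_apply, Module.End.one_apply, map_add,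
          map_smul] at h0
        linear_combination (norm := module) h0
      by_cases hr : r = 0
      · subst hr
        obtain ⟨e0, e1, e2⟩ := hcomb _ _ _ (by simpa using h1)
        have hp : p = 0 := (mul_eq_zero.1 e0).resolve_left hl.1
        rw [hp, zero_add] at e1
        rw [hp, (mul_eq_zero.1 e1).resolve_left hl.1]
        simp
      · exfalso
        refine hrel (-(l * p) / r) (-(p + l * q) / r) (-(q + l * r) / r) ?_
        apply smul_right_injective V hr
        simp only [smul_add, smul_smul, mul_div_cancel₀ _ hr]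
        linear_combination (norm := module) h1
    · intro h
      refine hl.2 ?_
      simp only [LinearMap.add_apply, LinearMap.smul_apply, Module.End.one_apply, map_add, map_smul,
        smul_eq_mul] at h
      field_simp
      linear_combination h
    · intro e he
      simp only [LinearMap.add_apply, LinearMap.smul_apply, Module.End.one_apply, map_sub] at he
      have := hcomb (-l + e) (l - 1 - e) 1 (by linear_combination (norm := module) he)
      exact one_ne_zero this.2.2
  obtain ⟨p0, q0, r0, hS3⟩ := hrel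
  have hp0 : ∀ l : K, (-l) ^ 3 ≠ p0 + q0 * (-l) + r0 * (-l) ^ 2 →
      ∀ y ∈ Submodule.span K ({v, S v, S (S v)} : Set V), (S + l • 1) y = 0 → y = 0 := by
    intro l hl y hy h0
    obtain ⟨p, q, r, rfl⟩ := hspan y hy
    simp only [LinearMap.add_apply, LinearMap.smul_apply, Module.End.one_apply, map_add, map_smul,
      hS3] at h0
    obtain ⟨e0, e1, e2⟩ := hcomb (l * p + r * p0) (p + l * q + r * q0) (q + l * r + r * r0)
      (by linear_combination (norm := module) h0)
    have hr : r = 0 := by
      by_contra hr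
      apply hl
      have hq : q = -(l + r0) * r := by linear_combination e2
      have hp : p = (l * (l + r0) - q0) * r := by linear_combination e1 - l * hq
      have : r * (l * (l * (l + r0) - q0) + p0) = 0 := by linear_combination e0 - l * hp
      linear_combination -(mul_eq_zero.1 this).resolve_left hr
    subst hr
    have hq : q = 0 := by linear_combination e2
    subst hq
    have hp : p = 0 := by linear_combination e1
    subst hp
    simp
  by_cases hgood : ∃ l : K, l ≠ -(u (S v)) / u v ∧ (-l) ^ 3 ≠ p0 + q0 * (-l) + r0 * (-l) ^ 2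
  · obtain ⟨l, hl1, hl2⟩ := hgood
    refine ⟨S + l • 1, (Commute.refl S).add_left ((Commute.one_left S).smul_left l), hp0 l hl2, ?_, ?_⟩
    · intro h
      refine hl1 ?_
      simp only [LinearMap.add_apply, LinearMap.smul_apply, Module.End.one_apply, map_add, map_smul,
        smul_eq_mul] at h
      field_simp
      linear_combination h
    · intro e he
      simp only [LinearMap.add_apply, LinearMap.smul_apply, Module.End.one_apply, map_sub] at he
      have := hcomb (-l + e) (l - 1 - e) 1 (by linear_combination (norm := module) he)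
      exact one_ne_zero this.2.2
  push Not at hgood
  -- here `K` has four elements and `S ^ 3 v = v`
  have hp00 : p0 ≠ 0 := by
    intro h0
    have h1 : S (S (S v)) = S (q0 • v + r0 • S v) := by
      rw [hS3, h0, map_add, map_smul, map_smul]; simp
    have h2 := hcomb (-q0) (-r0) 1 (by linear_combination (norm := module) hS h1)
    exact one_ne_zero h2.2.2
  have hm : -(u (S v)) / u v = 0 := by
    by_contra hm
    have h00 := hgood 0 (fun h => hm h.symm)
    simp at h00
    exact hp00 h00.symm
  have hu1 : u (S v) = 0 := neg_eq_zero.1 ((div_eq_zero_iff.1 hm).resolve_right huv)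
  have hroot : ∀ z : K, z ≠ 0 → z ^ 3 = p0 + q0 * z + r0 * z ^ 2 := by
    intro z hz
    have := hgood (-z) (by rw [hm]; exact neg_ne_zero.2 hz)
    rwa [neg_neg] at this
  let P : K[X] := X ^ 3 - C r0 * X ^ 2 - C q0 * X - C p0
  have hP : P.Monic := by simp only [P]; monicity!
  have hPdeg : P.natDegree = 3 := by simp only [P]; compute_degree!
  have hfin : ∀ z : K, z ∈ insert 0 P.roots.toFinset := fun z => by
    by_cases hz : z = 0
    · rw [hz]; exact Finset.mem_insert_self _ _
    · refine Finset.mem_insert_of_mem ?_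
      rw [Multiset.mem_toFinset, Polynomial.mem_roots hP.ne_zero]
      simp [P, hroot z hz]
  haveI : Finite K := Finite.of_injective (fun z => (⟨z, hfin z⟩ : (insert 0 P.roots.toFinset : Finset K)))
    fun a b h => congrArg Subtype.val h
  haveI := Fintype.ofFinite K
  have hcard : Fintype.card K = 4 := by
    have h1 := Finset.card_le_card (show (Finset.univ : Finset K) ⊆ _ from fun z _ => hfin z)
    have h2 := Finset.card_insert_le (0 : K) P.roots.toFinset
    have hr3 : P.roots.toFinset.card ≤ 3 :=
      (Multiset.toFinset_card_le _).trans ((Polynomial.card_roots' _).trans hPdeg.le)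
    rw [Finset.card_univ] at h1
    have h3 : 4 ≤ Fintype.card K := by
      rw [Cardinal.mk_fintype] at hK; exact_mod_cast hK
    omega
  have hchar : (2 : K) = 0 := by
    have h4 := FiniteField.cast_card_eq_zero K
    rw [hcard] at h4
    have : (2 : K) * 2 = 0 := by push_cast at h4; linear_combination h4
    exact (mul_eq_zero.1 this).elim id id
  obtain ⟨o, ho⟩ := exists_avoid hK {0, 1} (Finset.card_le_two.trans (by omega))
  simp only [Finset.mem_insert, Finset.mem_singleton, not_or] at ho
  have ho3 : o ^ 3 = 1 := by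
    have := FiniteField.pow_card_sub_one_eq_one o ho.1
    rwa [hcard] at this
  have ho2 : o * o + o + 1 = 0 :=
    (mul_eq_zero.1 (show (o - 1) * (o * o + o + 1) = 0 by linear_combination ho3)).resolve_left
      (sub_ne_zero.2 ho.2)
  have hoo : o * o ≠ 0 := mul_ne_zero ho.1 ho.1
  have e1 := hroot 1 one_ne_zero
  have e2 := hroot o ho.1
  have e3 := hroot (o * o) hoo
  have hr0 : r0 = 0 := by
    have h1 : (1 - o) * (q0 + r0 * (1 + o)) = 0 := by linear_combination e2 - e1 - ho3
    have h2 : (1 - o * o) * (q0 + r0 * (1 + o * o)) = 0 := by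
      linear_combination e3 - e1 - (o ^ 3 + 1) * ho3
    have h1' := (mul_eq_zero.1 h1).resolve_left (sub_ne_zero.2 (Ne.symm ho.2))
    have hoo1 : 1 - o * o ≠ 0 := fun h => ho.2 (by linear_combination ho3 + o * h)
    have h2' := (mul_eq_zero.1 h2).resolve_left hoo1
    have h3 : r0 * (o * (1 - o)) = 0 := by linear_combination h1' - h2'
    exact (mul_eq_zero.1 h3).resolve_right (mul_ne_zero ho.1 (sub_ne_zero.2 (Ne.symm ho.2)))
  subst hr0
  have hq0 : q0 = 0 := by
    have h1 : (1 - o) * q0 = 0 := by linear_combination e2 - e1 - ho3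
    exact (mul_eq_zero.1 h1).resolve_left (sub_ne_zero.2 (Ne.symm ho.2))
  subst hq0
  have hp1 : p0 = 1 := by linear_combination -e1
  subst hp1
  have hS3' : S (S (S v)) = v := by rw [hS3]; simp
  by_cases hu2 : u (S (S v)) = 0
  swap
  · refine ⟨S * S, (Commute.refl S).mul_left (Commute.refl S), fun y _ h0 => ?_, hu2, ?_⟩
    · exact hS (by rw [map_zero]; exact hS (by rw [map_zero]; exact h0))
    · intro e he
      simp only [Module.End.mul_apply, map_sub, hS3'] at he
      have := hcomb (1 + e) (-e) (-1) (by linear_combination (norm := module) he)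
      exact one_ne_zero (neg_eq_zero.1 this.2.2)
  refine ⟨o • 1 + S + o • (S * S), ?_, fun y hy h0 => ?_, ?_, ?_⟩
  · exact (((Commute.one_left S).smul_left o).add_left (Commute.refl S)).add_left
      (((Commute.refl S).mul_left (Commute.refl S)).smul_left o)
  · obtain ⟨p, q, r, rfl⟩ := hspan y hy
    simp only [LinearMap.add_apply, LinearMap.smul_apply, Module.End.one_apply, Module.End.mul_apply,
      map_add, map_smul, hS3'] at h0
    obtain ⟨c0, c1, c2⟩ := hcomb (o * p + o * q + r) (p + o * q + o * r) (o * p + q + o * r)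
      (by linear_combination (norm := module) h0)
    have hp : p = 0 := by
      linear_combination (o * o) * c0 + c1 + (o * o) * c2 - p * (ho3 + ho3 + hchar) -
        q * (ho3 + ho2) - r * (ho3 + ho2)
    have hq : q = 0 := by
      linear_combination (o * o) * c0 + (o * o) * c1 + c2 - q * (ho3 + ho3 + hchar) -
        p * (ho3 + ho2) - r * (ho3 + ho2)
    have hr : r = 0 := by
      linear_combination c0 + (o * o) * c1 + (o * o) * c2 - r * (ho3 + ho3 + hchar) -
        p * (ho3 + ho2) - q * (ho3 + ho2)
    subst hp hq hr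
    simp
  · simp only [LinearMap.add_apply, LinearMap.smul_apply, Module.End.one_apply, Module.End.mul_apply,
      map_add, map_smul, smul_eq_mul, hu1, hu2, mul_zero, add_zero]
    exact mul_ne_zero ho.1 huv
  · intro e he
    simp only [LinearMap.add_apply, LinearMap.smul_apply, Module.End.one_apply, Module.End.mul_apply,
      map_sub, hS3'] at he
    have := hcomb e (o - 1 - e) (1 - o) (by linear_combination (norm := module) he)
    exact ho.2 (sub_eq_zero.1 this.2.2).symm

/-- The data for one step of the recursion. -/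
theorem choose_data (hK : 4 ≤ Cardinal.mk K) (hd2 : 2 ≤ finrank K V) (S : Module.End K V)
    (hdet : LinearMap.det S = 1) (hns : ∀ c : K, S ≠ c • 1) (hsq : (S - 1) * (S - 1) ≠ 0)
    (u : V →ₗ[K] K) (hu : u ≠ 0) (w : V) (hw : w ≠ 0) :
    ∃ (v : V) (φ : V →ₗ[K] K) (hSv : φ (S v) = 1),
      φ v = 1 ∧ φ w ≠ 0 ∧ u v ≠ 0 ∧ φ ∘ₗ S ≠ φ ∧ S v ≠ v ∧ Adm (compr S v φ hSv) := by
  classical
  have hS : Function.Injective S := by
    refine LinearMap.ker_eq_bot.1 ?_
    by_contra hk
    exact (bot_lt_iff_ne_bot.2 hk).ne' (LinearMap.ker_eq_bot.2 (LinearMap.equivOfDetNeZero S (by rw [hdet]; exact one_ne_zero)).injective)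
  have ker_dim : ∀ {φ : V →ₗ[K] K} {v : V}, φ v = 1 →
      finrank K V = finrank K (LinearMap.ker φ) + 1 := fun {φ v} h => finrank_eq_succ φ v h
  by_cases hex : ∃ x, LinearIndependent K ![x, S x, S (S x)]
  · obtain ⟨v, hv, huv, hbad⟩ := choose_vector hK S hS u hu w hex
    have main : ∃ φ : V →ₗ[K] K, φ v = 1 ∧ φ (S v) = 1 ∧ φ w ≠ 0 ∧ φ (S (S v)) ≠ 1 ∧
        φ (S (S v)) ≠ LinearMap.trace K V S - (finrank K V : K) + 1 := by
      by_cases hwsp : w ∈ Submodule.span K (Set.range ![v, S v, S (S v)])
      · obtain ⟨g, hg⟩ := (Submodule.mem_span_range_iff_exists_fun K).1 hwsp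
        simp only [Fin.sum_univ_three, Matrix.cons_val_zero, Matrix.cons_val_one, Matrix.cons_val] at hg
        obtain ⟨t, ht⟩ := exists_avoid hK
          {1, LinearMap.trace K V S - (finrank K V : K) + 1, -(g 0 + g 1) / g 2} Finset.card_le_three
        simp only [Finset.mem_insert, Finset.mem_singleton, not_or] at ht
        obtain ⟨φ, hφ⟩ := exists_dual hv ![1, 1, t]
        have e0 : φ v = 1 := by simpa using hφ 0
        have e1 : φ (S v) = 1 := by simpa using hφ 1
        have e2 : φ (S (S v)) = t := by simpa using hφ 2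
        refine ⟨φ, e0, e1, ?_, by rw [e2]; exact ht.1, by rw [e2]; exact ht.2.1⟩
        rw [← hg, map_add, map_add, map_smul, map_smul, map_smul, e0, e1, e2]
        simp only [smul_eq_mul, mul_one]
        intro h0
        by_cases hg2 : g 2 = 0
        · rw [hg2, zero_mul, add_zero] at h0
          have hg1 : g 1 ≠ 0 := by
            intro hg1
            rw [hg1, add_zero] at h0
            apply hw
            rw [← hg, h0, hg1, hg2]
            simp
          refine hbad (g 1)⁻¹ ?_
          rw [← hg, hg2, eq_neg_of_add_eq_zero_left h0]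
          simp only [zero_smul, add_zero, smul_add, smul_smul, mul_neg, inv_mul_cancel₀ hg1]
          module
        · exact ht.2.2 (by field_simp; linear_combination h0)
      · obtain ⟨t, ht⟩ := exists_avoid hK {1, LinearMap.trace K V S - (finrank K V : K) + 1}
          (Finset.card_le_two.trans (by omega))
        simp only [Finset.mem_insert, Finset.mem_singleton, not_or] at ht
        obtain ⟨φ, hφ⟩ := exists_dual (linearIndependent_finCons.2 ⟨hv, hwsp⟩) ![1, 1, 1, t]
        have e0 : φ v = 1 := by simpa using hφ 1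
        have e1 : φ (S v) = 1 := by simpa using hφ 2
        have e2 : φ (S (S v)) = t := by simpa using hφ 3
        have ew : φ w = 1 := by simpa using hφ 0
        exact ⟨φ, e0, e1, by rw [ew]; exact one_ne_zero, by rw [e2]; exact ht.1,
          by rw [e2]; exact ht.2⟩
    obtain ⟨φ, e0, e1, ew, et1, et2⟩ := main
    refine ⟨v, φ, e1, e0, ew, huv, fun h => et1 ?_,
      fun h => hbad 0 (by rw [h, sub_self, zero_smul]), fun _ => ⟨fun c hc => ?_, fun hq => et2 ?_⟩⟩
    · have := LinearMap.congr_fun h (S v)
      simpa [e1] using this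
    · have h := congrArg Subtype.val (LinearMap.congr_fun hc
        ⟨S v - v, by rw [LinearMap.mem_ker, map_sub, e0, e1, sub_self]⟩)
      rw [coe_compr] at h
      simp only [LinearMap.smul_apply, Module.End.one_apply, map_sub, e1, SetLike.val_smul] at h
      have h9 := Fintype.linearIndependent_iff.1 hv ![c, -1 - c - (φ (S (S v)) - 1), 1] (by
        simp only [Fin.sum_univ_three, Matrix.cons_val_zero, Matrix.cons_val_one, Matrix.cons_val]
        linear_combination (norm := module) h) 2
      simp at h9
    · have := trace_compr S v φ e0 e1 hq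
      linear_combination -this
  -- quadratic case
  push Not at hex
  obtain ⟨a, b, hab⟩ := quadratic_of_dependent S hns hex
  have hquad : ∀ x, S (S x) = a • S x + b • x := fun x => by
    have := LinearMap.congr_fun hab x
    simpa [Module.End.mul_apply] using this
  have hb : b ≠ 0 := by
    intro h0
    refine hns a (LinearMap.ext fun x => hS ?_)
    rw [hquad x, h0]; simp
  -- non-eigenvectors
  obtain ⟨x₀, hx₀⟩ : ∃ x, ∀ c : K, S x ≠ c • x := by
    by_contra h
    push Not at h
    haveI : Nontrivial V := Module.nontrivial_of_finrank_pos (R := K) (by omega)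
    obtain ⟨x, hx⟩ := exists_ne (0 : V)
    obtain ⟨c, hc⟩ := h x
    refine hns c (LinearMap.ext fun y => ?_)
    obtain ⟨d, hd⟩ := h y
    by_cases hyx : ∃ e : K, y = e • x
    · obtain ⟨e, rfl⟩ := hyx
      simp [hc, smul_comm c e]
    · push Not at hyx
      obtain ⟨e, he⟩ := h (x + y)
      rw [map_add, hc, hd] at he
      have hdc : d = c := by
        by_contra hne
        have h1 : (d - e) • y = (e - c) • x := by linear_combination (norm := module) he
        by_cases hde : d - e = 0
        · rw [hde, zero_smul, eq_comm, smul_eq_zero, or_iff_left hx, sub_eq_zero] at h1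
          exact hne ((sub_eq_zero.1 hde).trans h1)
        · exact hyx ((d - e)⁻¹ * (e - c)) (by rw [mul_smul, ← h1, inv_smul_smul₀ hde])
      simp [hd, hdc]
  let Eg : K → Submodule K V := fun c => LinearMap.ker (S - c • 1)
  have hEg : ∀ c, Eg c ≠ ⊤ := fun c h => hns c (sub_eq_zero.1 (LinearMap.ker_eq_top.1 h))
  have hroots : ∀ x, x ≠ 0 → ∀ c, S x = c • x → c * c = a * c + b := by
    intro x hx c hc
    have h := hquad x
    rw [hc, map_smul, hc, smul_smul] at h
    have : (c * c - (a * c + b)) • x = 0 := by linear_combination (norm := module) h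
    exact sub_eq_zero.1 ((smul_eq_zero.1 this).resolve_right hx)
  obtain ⟨r, hr⟩ : ∃ r, ∀ x : V, x ≠ 0 → ∀ c : K, S x = c • x → c = r ∨ c = a - r := by
    by_cases h : ∃ x : V, x ≠ 0 ∧ ∃ c : K, S x = c • x
    · obtain ⟨x, hx, c, hc⟩ := h
      refine ⟨c, fun y hy e he => ?_⟩
      have h1 := hroots x hx c hc
      have h2 := hroots y hy e he
      rcases mul_eq_zero.1 (show (e - c) * (e - (a - c)) = 0 by linear_combination h2 - h1) with h | h
      · exact Or.inl (sub_eq_zero.1 h)
      · exact Or.inr (sub_eq_zero.1 h)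
    · push Not at h
      exact ⟨0, fun x hx c hc => absurd hc (h x hx c)⟩
  -- rank one is excluded when `a + b = 1`
  have hrank : a + b = 1 → -b ≠ 1 ∧ ∀ z : V, ∃ y, S y - y ∉ Submodule.span K {z} := by
    intro hab1
    have hb1 : -b ≠ 1 := fun h => hsq (LinearMap.ext fun x => by
      have hA : a = 2 := by linear_combination hab1 + h
      have hB : b = -1 := by linear_combination -h
      simp only [Module.End.mul_apply, LinearMap.sub_apply, Module.End.one_apply, map_sub, hquad,
        LinearMap.zero_apply, hA, hB]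
      module)
    refine ⟨hb1, fun z => ?_⟩
    by_contra hcon
    push Not at hcon
    obtain ⟨y₀, hy₀⟩ : ∃ y, S y - y ≠ 0 := ⟨x₀, fun h => hx₀ 1 (by rw [one_smul]; exact sub_eq_zero.1 h)⟩
    have hmem : ∀ x, S x - x ∈ Submodule.span K {S y₀ - y₀} := by
      intro x
      obtain ⟨c, hc⟩ := Submodule.mem_span_singleton.1 (hcon x)
      obtain ⟨c₀, hc₀⟩ := Submodule.mem_span_singleton.1 (hcon y₀)
      have hc00 : c₀ ≠ 0 := fun h => hy₀ (by rw [← hc₀, h, zero_smul])
      exact Submodule.mem_span_singleton.2 ⟨c / c₀, by rw [← hc₀, smul_smul, div_mul_cancel₀ _ hc00, hc]⟩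
    choose g hg using fun x => Submodule.mem_span_singleton.1 (hmem x)
    have hinj : ∀ s t : K, s • (S y₀ - y₀) = t • (S y₀ - y₀) → s = t := fun s t h =>
      smul_left_injective K hy₀ h
    let gl : V →ₗ[K] K :=
      { toFun := g
        map_add' := fun x y => hinj _ _ (by rw [add_smul, hg, hg, hg, map_add]; abel)
        map_smul' := fun c x => hinj _ _ (by
          rw [RingHom.id_apply, smul_eq_mul, mul_smul, hg, hg, map_smul, smul_sub]) }
    have hS' : S = LinearMap.transvection gl (S y₀ - y₀) := LinearMap.ext fun x => by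
      rw [LinearMap.transvection.apply]
      show S x = x + g x • (S y₀ - y₀)
      rw [hg, add_sub_cancel]
    have hdet' : LinearMap.det S = 1 + g (S y₀ - y₀) := by
      conv_lhs => rw [hS']
      rw [LinearMap.transvection.det]
      rfl
    have h0 : g (S y₀ - y₀) = 0 := by linear_combination hdet - hdet'
    have hg' := hg (S y₀ - y₀)
    rw [h0, zero_smul, map_sub, hquad] at hg'
    have h2 : (-b - 1) • (S y₀ - y₀) = (0 : V) := by
      have hA : a = 1 - b := by linear_combination hab1
      rw [hA] at hg'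
      linear_combination (norm := module) -hg'
    exact hy₀ ((smul_eq_zero.1 h2).resolve_left (sub_ne_zero.2 hb1))
  let Pw : Submodule K V := (Submodule.span K {w}).comap (S - 1)
  have hPw : Pw ≠ ⊤ := by
    intro htop
    by_cases hab1 : a + b = 1
    · obtain ⟨y, hy⟩ := (hrank hab1).2 w
      exact hy (by simpa [Pw] using (htop ▸ Submodule.mem_top : y ∈ Pw))
    · have hinj : Function.Injective (S - 1 : Module.End K V) := by
        rw [injective_iff_map_eq_zero]
        intro x hx
        simp only [LinearMap.sub_apply, Module.End.one_apply, sub_eq_zero] at hx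
        by_contra hne
        have := hroots x hne 1 (by rw [one_smul]; exact hx)
        exact hab1 (by linear_combination -this)
      have h1 : finrank K V ≤ finrank K (Submodule.span K ({w} : Set V)) := by
        have hr : LinearMap.range (S - 1 : Module.End K V) ≤ Submodule.span K {w} := by
          rintro _ ⟨x, rfl⟩
          exact (htop ▸ Submodule.mem_top : x ∈ Pw)
        rw [← LinearMap.finrank_range_of_inj hinj]
        exact Submodule.finrank_mono hr
      rw [finrank_span_singleton hw] at h1
      omega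
  have hkeru : LinearMap.ker u ≠ ⊤ := fun h => hu (LinearMap.ker_eq_top.1 h)
  obtain ⟨v, hvu, hvr, hvs, hvP⟩ :=
    exists_notMem_four hK (LinearMap.ker u) (Eg r) (Eg (a - r)) Pw hkeru (hEg r) (hEg _) hPw
  have hv0 : v ≠ 0 := fun h => hvu (h ▸ Submodule.zero_mem _)
  have hneig : ∀ c : K, S v ≠ c • v := by
    intro c hc
    rcases hr v hv0 c hc with rfl | rfl
    · exact hvr (by simp [Eg, hc])
    · exact hvs (by simp [Eg, hc])
  have hwv : ∀ c : K, c • (S v - v) ≠ w := by
    intro c hc
    have hc0 : c ≠ 0 := fun h => hw (by rw [← hc, h, zero_smul])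
    apply hvP
    show (S - 1) v ∈ Submodule.span K {w}
    exact Submodule.mem_span_singleton.2 ⟨c⁻¹, by rw [← hc, inv_smul_smul₀ hc0]; rfl⟩
  have hv2 : LinearIndependent K ![v, S v] := (LinearIndependent.pair_iff' hv0).2 fun c hc => hneig c hc.symm
  -- the functional
  obtain ⟨φ, e0, e1, ew, eμ⟩ : ∃ φ : V →ₗ[K] K, φ v = 1 ∧ φ (S v) = 1 ∧ φ w ≠ 0 ∧
      (a + b = 1 → ∃ y, φ (S y - y) ≠ 0) := by
    have hz : (1 : K) ≠ 0 := one_ne_zero
    let base : Submodule K V := Submodule.span K (Set.range ![v, S v])
    -- a functional with the given values, and modifications killing `v` and `S v`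
    obtain ⟨φ₀, hφ₀⟩ := exists_dual hv2 ![1, 1]
    have f0 : φ₀ v = 1 := by simpa using hφ₀ 0
    have f1 : φ₀ (S v) = 1 := by simpa using hφ₀ 1
    have mk : ∀ z : V, (∀ c : K, c • (S v - v) ≠ z) → ∃ ψ : V →ₗ[K] K,
        ψ v = 1 ∧ ψ (S v) = 1 ∧ ψ z ≠ 0 := by
      intro z hz
      by_cases hφz : φ₀ z = 0
      swap
      · exact ⟨φ₀, f0, f1, hφz⟩
      have hnot : z ∉ Submodule.span K (Set.range ![v, S v]) := by
        intro h
        obtain ⟨g, hg⟩ := (Submodule.mem_span_range_iff_exists_fun K).1 h
        simp only [Fin.sum_univ_two, Matrix.cons_val_zero, Matrix.cons_val_one] at hg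
        rw [← hg, map_add, map_smul, map_smul, f0, f1] at hφz
        simp only [smul_eq_mul, mul_one] at hφz
        exact hz (g 1) (by rw [← hg, eq_neg_of_add_eq_zero_left hφz]; module)
      obtain ⟨ψ, hψ⟩ := exists_dual (linearIndependent_finCons.2 ⟨hv2, hnot⟩) ![1, 1, 1]
      exact ⟨ψ, by simpa using hψ 1, by simpa using hψ 2, by rw [show ψ z = 1 by simpa using hψ 0]; exact one_ne_zero⟩
    obtain ⟨φ1, g0, g1, gw⟩ := mk w hwv
    by_cases hab1 : a + b = 1
    swap
    · exact ⟨φ1, g0, g1, gw, fun h => absurd h hab1⟩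
    obtain ⟨y, hy⟩ := (hrank hab1).2 (S v - v)
    obtain ⟨φ2, k0, k1, ky⟩ := mk (S y - y) fun c hc => hy (Submodule.mem_span_singleton.2 ⟨c, hc⟩)
    by_cases h1y : φ1 (S y - y) = 0
    swap
    · exact ⟨φ1, g0, g1, gw, fun _ => ⟨y, h1y⟩⟩
    by_cases h2w : φ2 w = 0
    swap
    · exact ⟨φ2, k0, k1, h2w, fun _ => ⟨y, ky⟩⟩
    obtain ⟨l, hl⟩ := exists_avoid hK {0, 1} (Finset.card_le_two.trans (by omega))
    simp only [Finset.mem_insert, Finset.mem_singleton, not_or] at hl
    refine ⟨l • φ1 + (1 - l) • φ2, by simp [g0, k0], by simp [g1, k1], ?_, fun _ => ⟨y, ?_⟩⟩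
    · simpa [h2w] using mul_ne_zero hl.1 gw
    · have h := mul_ne_zero (sub_ne_zero.2 (Ne.symm hl.2)) ky
      simp only [LinearMap.add_apply, LinearMap.smul_apply, smul_eq_mul, h1y, mul_zero, zero_add]
      exact h
  have ht : φ (S (S v)) = a + b := by rw [hquad, map_add, map_smul, map_smul, e0, e1]; simp
  have hne : φ ∘ₗ S ≠ φ := by
    intro h
    by_cases hab1 : a + b = 1
    · obtain ⟨y, hy⟩ := eμ hab1
      exact hy (by rw [map_sub, ← LinearMap.comp_apply, h, sub_self])
    · have := LinearMap.congr_fun h (S v)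
      rw [LinearMap.comp_apply, ht, e1] at this
      exact hab1 this
  refine ⟨v, φ, e1, e0, ew, fun h => hvu (LinearMap.mem_ker.2 h), hne,
    fun h => hneig 1 (by rw [one_smul]; exact h), fun hW => ?_⟩
  obtain ⟨c₀, hc₀⟩ : ∃ c₀ : LinearMap.ker φ, (c₀ : V) = S v - v :=
    ⟨⟨S v - v, by rw [LinearMap.mem_ker, map_sub, e0, e1, sub_self]⟩, rfl⟩
  have hc₀0 : c₀ ≠ 0 := fun h => hneig 1 (by
    rw [one_smul]; exact sub_eq_zero.1 (by rw [← hc₀, h]; rfl))
  have hcw : compr S v φ e1 c₀ = (-b) • c₀ := by
    apply Subtype.ext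
    rw [coe_compr, SetLike.val_smul, hc₀, map_sub, map_sub φ, ht, e1, hquad]
    module
  have hdimV := ker_dim e0
  refine ⟨fun c hc => ?_, fun hq => ?_⟩
  · have hcb : c = -b := by
      have := hcw
      rw [hc, LinearMap.smul_apply, Module.End.one_apply] at this
      exact smul_left_injective K hc₀0 this
    subst hcb
    have hz : ∀ z : LinearMap.ker φ, S (z : V) + b • (z : V) = φ (S (z : V)) • S v := by
      intro z
      have := congrArg Subtype.val (LinearMap.congr_fun hc z)
      rw [coe_compr, LinearMap.smul_apply, Module.End.one_apply, SetLike.val_smul] at this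
      linear_combination (norm := module) this
    by_cases hab1 : a + b = 1
    · -- `φ (S z) = 0` on `ker φ`
      refine hne (ext_eq' φ v e0 (fun z => ?_) (by rw [LinearMap.comp_apply, e1, e0]))
      rw [LinearMap.comp_apply, LinearMap.mem_ker.1 z.2]
      have h1 : S (S (z : V) + b • (z : V)) = S (z : V) + b • (z : V) := by
        have hA : a = 1 - b := by linear_combination hab1
        rw [map_add, map_smul, hquad, hA]; module
      rw [hz, map_smul] at h1
      by_contra hne0
      exact hneig 1 (by rw [one_smul]; exact hS (smul_right_injective V hne0 h1))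
    · have hinj : ∀ x, S x + b • x = 0 → x = 0 := by
        intro x hx
        by_contra h0
        have h := hroots x h0 (-b) (by linear_combination (norm := module) hx)
        have h2 : b * (b + a - 1) = 0 := by linear_combination h
        exact hab1 (by linear_combination (mul_eq_zero.1 h2).resolve_left hb)
      have hle : finrank K (LinearMap.ker φ) ≤ 1 := by
        refine le_trans (LinearMap.finrank_le_finrank_of_injective
          (f := φ ∘ₗ S ∘ₗ (LinearMap.ker φ).subtype) ?_) (le_of_eq (finrank_self K))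
        rw [injective_iff_map_eq_zero]
        intro z h0
        apply Subtype.ext
        refine hinj _ ?_
        rw [hz z]
        simp only [LinearMap.comp_apply, Submodule.subtype_apply] at h0
        rw [h0, zero_smul]
      omega
  · have h := LinearMap.congr_fun hq c₀
    simp only [Module.End.mul_apply, LinearMap.sub_apply, Module.End.one_apply, hcw, map_sub,
      map_smul, LinearMap.zero_apply] at h
    have hbb : -b = 1 := by
      have h' : ((-b - 1) * (-b - 1)) • c₀ = 0 := by linear_combination (norm := module) h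
      exact sub_eq_zero.1 (mul_self_eq_zero.1 ((smul_eq_zero.1 h').resolve_right hc₀0))
    have ha2 : a - 2 ≠ 0 := by
      intro h2
      apply hsq
      refine LinearMap.ext fun x => ?_
      simp only [Module.End.mul_apply, LinearMap.sub_apply, Module.End.one_apply, map_sub, hquad,
        LinearMap.zero_apply]
      rw [sub_eq_zero.1 h2, show b = -1 by linear_combination -hbb]
      module
    -- modulo the plane spanned by `v` and `S v` the map `(S - 1) ^ 2 = (a - 2) S` is injective
    have hmod : ∀ z : LinearMap.ker φ, ∃ p q : K, S (S (z : V) - (z : V)) - (S (z : V) - (z : V)) = p • v + q • S v := by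
      intro z
      have h1 := congrArg Subtype.val (LinearMap.congr_fun hq z)
      simp only [Module.End.mul_apply, LinearMap.sub_apply, Module.End.one_apply, LinearMap.zero_apply,
        ZeroMemClass.coe_zero, AddSubgroupClass.coe_sub, map_sub, coe_compr] at h1
      simp only [map_smul, map_add, map_sub, smul_eq_mul, LinearMap.mem_ker.1 z.2, e0, e1, hquad, mul_zero, mul_one, add_zero] at h1 ⊢
      exact ⟨φ (S (z : V)) * b, φ (S (z : V)) * (a - b - 2), by linear_combination (norm := module) h1⟩
    have hle : finrank K (LinearMap.ker φ) ≤ 1 := by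
      have hker : LinearMap.ker φ ≤ Submodule.span K {S v - v} := by
        intro z hz
        obtain ⟨p, q, hpq⟩ := hmod ⟨z, hz⟩
        have hB : b = -1 := by linear_combination -hbb
        have h1 : S ((a - 2) • z) = p • v + q • S v := by
          rw [← hpq, map_smul]
          simp only [map_sub, hquad, hB]
          module
        have h2 : S ((q + p * a) • v + (-p) • S v) = p • v + q • S v := by
          rw [map_add, map_smul, map_smul, hquad, hB]; module
        have h3 := hS (h1.trans h2.symm)
        have h4 : q + p * a + -p = 0 := by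
          have := congrArg φ h3
          simp only [map_add, map_smul, smul_eq_mul, LinearMap.mem_ker.1 hz, e0, e1, mul_zero, mul_one] at this
          exact this.symm
        refine Submodule.mem_span_singleton.2 ⟨-p / (a - 2), ?_⟩
        apply smul_right_injective V ha2
        simp only
        rw [h3, smul_smul, mul_div_cancel₀ _ ha2, show q + p * a = p by linear_combination h4]
        module
      refine (Submodule.finrank_mono hker).trans ((finrank_span_le_card _).trans ?_)
      simp
    omega
where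
  ext_eq' {V : Type v} [AddCommGroup V] [Module K V] [FiniteDimensional K V] (φ : V →ₗ[K] K) (v : V) (hv : φ v = 1)
      {f g : V →ₗ[K] K} (h1 : ∀ z : LinearMap.ker φ, f z = g z) (h2 : f v = g v) : f = g := by
    refine LinearMap.ext fun x => ?_
    have hx : x = (proj φ v hv x : V) + φ x • v := by rw [coe_proj, sub_add_cancel]
    rw [hx, map_add, map_add, map_smul, map_smul, h1, h2]

omit [FiniteDimensional K V] in
theorem eq_one_of_det_of_finrank_one (h1 : finrank K V = 1) (S : Module.End K V)
    (hdet : LinearMap.det S = 1) : S = 1 := by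
  haveI : FiniteDimensional K V := Module.finite_of_finrank_eq_succ h1
  obtain ⟨v, hv, hspan⟩ := finrank_eq_one_iff'.1 h1
  obtain ⟨c, hc⟩ := hspan (S v)
  have hS : S = c • (LinearMap.id : Module.End K V) := LinearMap.ext fun x => by
    obtain ⟨e, rfl⟩ := hspan x
    rw [map_smul, ← hc, LinearMap.smul_apply, LinearMap.id_apply, smul_comm]
  rw [hS, LinearMap.det_smul, h1, pow_one, LinearMap.det_id, mul_one] at hdet
  rw [hS, hdet, one_smul]
  rfl

theorem factor_good (hK : 4 ≤ Cardinal.mk K) : ∀ (n : ℕ) (V : Type v) [AddCommGroup V] [Module K V]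
    [FiniteDimensional K V] (S : Module.End K V), finrank K V = n → 1 ≤ n → LinearMap.det S = 1 →
    Adm S → ∀ (u : V →ₗ[K] K), u ≠ 0 → ∀ w : V, w ≠ 0 → Good S u w := by
  intro n
  induction n with
  | zero => intro V _ _ _ S _ h; omega
  | succ n ih =>
    intro V _ _ _ S hn _ hdet hadm u hu w hw
    rcases Nat.eq_zero_or_pos n with rfl | hn1
    · refine ⟨1, 1, ru_one_dim hn, ru_one_dim hn, ?_, ?_, ?_⟩
      · rw [eq_one_of_det_of_finrank_one hn S hdet, one_mul]
      · rw [hn]; simpa using hw
      · rw [hn]; simpa [Module.End.one_eq_id] using hu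
    obtain ⟨hns, hsq⟩ := hadm (by omega)
    obtain ⟨v, φ, hSv, hv, hw', huv, hne, hvfix, hadm'⟩ :=
      choose_data hK (by omega) S hdet hns hsq u hu w hw
    have hdim := finrank_eq_succ φ v hv
    obtain ⟨c, hc⟩ : ∃ c : LinearMap.ker φ, (c : V) = S v - v :=
      ⟨⟨S v - v, by rw [LinearMap.mem_ker, map_sub, hv, hSv, sub_self]⟩, rfl⟩
    have hc0 : c ≠ 0 := by
      intro h0
      have hfix : S v = v := sub_eq_zero.1 (by rw [← hc, h0]; rfl)
      exact hvfix hfix
    let f : LinearMap.ker φ →ₗ[K] K := φ ∘ₗ S ∘ₗ (LinearMap.ker φ).subtype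
    have hf : f ≠ 0 := by
      intro h0
      refine hne (LinearMap.ext fun x => ?_)
      have hx : x = (proj φ v hv x : V) + φ x • v := by rw [coe_proj, sub_add_cancel]
      have h1 := LinearMap.congr_fun h0 (proj φ v hv x)
      simp only [f, LinearMap.comp_apply, Submodule.subtype_apply, LinearMap.zero_apply] at h1
      rw [hx, map_add, map_add, LinearMap.comp_apply, LinearMap.comp_apply, map_smul, map_smul,
        map_smul, h1, hSv, LinearMap.mem_ker.1 (Submodule.coe_mem _), hv]
    obtain ⟨X, Y, hX, hY, hXY, hXc, hYf⟩ := ih (LinearMap.ker φ) (compr S v φ hSv) (by omega) hn1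
      (by rw [← det_compr S v φ hv hSv, hdet]) hadm' f hf c hc0
    obtain ⟨hXr, hXw⟩ := lower_ru φ v hv X c hX hXc
    obtain ⟨hYr, hYu⟩ := upper_ru φ v hv Y f hY hYf
    refine ⟨_, _, hXr, hYr, ?_, hXw w hw', hYu u huv⟩
    refine ext_eq φ v hv (fun z => ?_) ?_
    · rw [Module.End.mul_apply, upper_coe, map_add, map_smul, ext_self, ext_coe, hc, add_sub_cancel,
        ← Module.End.mul_apply, ← hXY, coe_compr]
      simp [f]
    · rw [Module.End.mul_apply, upper_self, ext_self, hc, add_sub_cancel]

/-- The unipotent maps. -/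
theorem factor_unipotent (hK : 4 ≤ Cardinal.mk K) : ∀ (n : ℕ) (V : Type v) [AddCommGroup V]
    [Module K V] [FiniteDimensional K V] (S : Module.End K V), finrank K V = n → 1 ≤ n →
    IsNilpotent (S - 1) → ∃ X Y : Module.End K V, RU X ∧ RU Y ∧ S = X * Y := by
  classical
  intro n
  induction n with
  | zero => intro V _ _ _ S _ h; omega
  | succ n ih =>
    intro V _ _ _ S hn _ hS
    haveI : Nontrivial V := Module.nontrivial_of_finrank_pos (R := K) (by omega)
    rcases Nat.eq_zero_or_pos n with rfl | hn1
    · refine ⟨1, 1, ru_one_dim hn, ru_one_dim hn, ?_⟩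
      obtain ⟨v, hv, hspan⟩ := finrank_eq_one_iff'.1 hn
      obtain ⟨c, hc⟩ := hspan ((S - 1) v)
      obtain ⟨k, hk⟩ := hS
      have hpow : ∀ j, ((S - 1) ^ j) v = c ^ j • v := fun j => by
        induction j with
        | zero => simp
        | succ j ihj => rw [pow_succ', Module.End.mul_apply, ihj, map_smul, ← hc, smul_smul, ← pow_succ]
      have hc0 : c = 0 := by
        have h := hpow k
        rw [hk, LinearMap.zero_apply, eq_comm, smul_eq_zero, or_iff_left hv] at h
        exact eq_zero_of_pow_eq_zero h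
      rw [one_mul, ← sub_eq_zero]
      refine LinearMap.ext fun x => ?_
      obtain ⟨e, rfl⟩ := hspan x
      rw [map_smul, ← hc, hc0]
      simp
    have hlt : LinearMap.range (S - 1) < ⊤ := by
      rw [lt_top_iff_ne_top]
      intro htop
      obtain ⟨k, hk⟩ := hS
      obtain ⟨x, hx⟩ := exists_ne (0 : V)
      have hsur : Function.Surjective ((S - 1) ^ k : Module.End K V) := by
        rw [Module.End.coe_pow]
        exact (LinearMap.range_eq_top.1 htop).iterate k
      obtain ⟨y, hy⟩ := hsur x
      rw [hk] at hy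
      exact hx hy.symm
    obtain ⟨φ, hφ, hle⟩ := Submodule.exists_le_ker_of_lt_top _ hlt
    obtain ⟨v, hv⟩ : ∃ v, φ v = 1 := by
      obtain ⟨x, hx⟩ : ∃ x, φ x ≠ 0 := by
        by_contra h; push Not at h; exact hφ (LinearMap.ext h)
      exact ⟨(φ x)⁻¹ • x, by rw [map_smul, smul_eq_mul, inv_mul_cancel₀ hx]⟩
    have hdim := finrank_eq_succ φ v hv
    have hker : ∀ z ∈ LinearMap.ker φ, S z ∈ LinearMap.ker φ := fun z hz => by
      have := (LinearMap.ker φ).add_mem (hle ⟨z, rfl⟩) hz
      simpa using this
    have hnil : IsNilpotent (S.restrict hker - 1) := by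
      obtain ⟨k, hk⟩ := hS
      refine ⟨k, LinearMap.ext fun z => Subtype.ext ?_⟩
      have hcoe : ∀ (j : ℕ) (z : LinearMap.ker φ),
          ((((S.restrict hker - 1) ^ j) z : LinearMap.ker φ) : V) = ((S - 1) ^ j) (z : V) := by
        intro j
        induction j with
        | zero => simp
        | succ j ihj =>
          intro z
          rw [pow_succ, Module.End.mul_apply, ihj, pow_succ, Module.End.mul_apply]
          rfl
      rw [hcoe, hk]; rfl
    obtain ⟨X, Y, hX, hY, hXY⟩ := ih (LinearMap.ker φ) (S.restrict hker) (by omega) hn1 hnil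
    obtain ⟨c, hc⟩ : ∃ c : LinearMap.ker φ, (c : V) = S v - v := ⟨⟨_, hle ⟨v, rfl⟩⟩, rfl⟩
    have hXu : IsUnit X := by
      have h := IsNilpotent.isUnit_one_add (r := X - 1) ⟨_, hX.1⟩
      rwa [add_sub_cancel] at h
    obtain ⟨Xu, rfl⟩ := hXu
    let A := ((Xu : Module.End K (LinearMap.ker φ)) - 1) ^ (finrank K (LinearMap.ker φ) - 1)
    let B := ((Y - 1) ^ (finrank K (LinearMap.ker φ) - 1)) * ((Xu⁻¹ : (Module.End K (LinearMap.ker φ))ˣ) : Module.End K (LinearMap.ker φ))
    have hA : A ≠ 0 := hX.2
    have hB : B ≠ 0 := fun h => hY.2 (by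
      have := congrArg (fun f => f * (Xu : Module.End K (LinearMap.ker φ))) h
      simpa [B, mul_assoc] using this)
    obtain ⟨a₀, hA0, hB0⟩ := exists_notMem_two (LinearMap.ker A) (LinearMap.ker B)
      (fun h => hA (LinearMap.ker_eq_top.1 h)) (fun h => hB (LinearMap.ker_eq_top.1 h))
    obtain ⟨l, hl0, hl⟩ : ∃ l : K, l ≠ 0 ∧ B (c - l • a₀) ≠ 0 := by
      by_cases h : ∃ l : K, B (c - l • a₀) = 0
      · obtain ⟨l₁, hl₁⟩ := h
        obtain ⟨l, hl⟩ := exists_avoid hK {0, l₁} (Finset.card_le_two.trans (by omega))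
        simp only [Finset.mem_insert, Finset.mem_singleton, not_or] at hl
        refine ⟨l, hl.1, fun h2 => hB0 ?_⟩
        rw [map_sub, map_smul, sub_eq_zero] at h2 hl₁
        have : (l - l₁) • B a₀ = 0 := by rw [sub_smul, ← h2, ← hl₁, sub_self]
        exact LinearMap.mem_ker.2 ((smul_eq_zero.1 this).resolve_left (sub_ne_zero.2 hl.2))
      · push Not at h
        exact ⟨1, one_ne_zero, h 1⟩
    obtain ⟨hXr, -⟩ := lower_ru φ v hv _ (l • a₀) hX (by
      rw [map_smul]; exact smul_ne_zero hl0 (fun h => hA0 (LinearMap.mem_ker.2 h)))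
    let b₀ := ((Xu⁻¹ : (Module.End K (LinearMap.ker φ))ˣ) : Module.End K (LinearMap.ker φ)) (c - l • a₀)
    obtain ⟨hYr, -⟩ := lower_ru φ v hv Y b₀ hY (by simpa [B, b₀, Module.End.mul_apply] using hl)
    refine ⟨_, _, hXr, hYr, ext_eq φ v hv (fun z => ?_) ?_⟩
    · rw [Module.End.mul_apply, ext_coe, ext_coe, ← Module.End.mul_apply, ← hXY]
      rfl
    · have hb : (Xu : Module.End K (LinearMap.ker φ)) b₀ = c - l • a₀ := by
        show _ = _
        rw [← Module.End.mul_apply, Units.mul_inv, Module.End.one_apply]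
      rw [Module.End.mul_apply, ext_self, map_add, ext_self, ext_coe, hb, Submodule.coe_sub,
        Submodule.coe_smul, hc]
      abel

/-- Every non-scalar map of determinant one is a product of two regular unipotent maps. -/
theorem factor (hK : 4 ≤ Cardinal.mk K) (S : Module.End K V) (hd : 3 ≤ finrank K V)
    (hdet : LinearMap.det S = 1) (hns : ∀ c : K, S ≠ c • 1) :
    ∃ X Y : Module.End K V, RU X ∧ RU Y ∧ S = X * Y := by
  by_cases hsq : (S - 1) * (S - 1) = 0
  · exact factor_unipotent hK _ V S rfl (by omega) ⟨2, by rw [pow_two, hsq]⟩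
  haveI : Nontrivial V := Module.nontrivial_of_finrank_pos (R := K) (by omega)
  obtain ⟨w, hw⟩ := exists_ne (0 : V)
  obtain ⟨u, hu⟩ := exists_dual (b := fun _ : Unit => w) (linearIndependent_unique_iff.2 hw) (fun _ : Unit => (1 : K))
  obtain ⟨X, Y, hX, hY, hXY, -, -⟩ := factor_good hK _ V S rfl (by omega) hdet
    (fun _ => ⟨hns, hsq⟩) u (fun h => by simpa [h] using hu ()) w hw
  exact ⟨X, Y, hX, hY, hXY⟩

end CfsgLib.Sourour
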