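import Mathlib

/-!
# Regular unipotent maps and their extensions by one dimension
-/

set_option autoImplicit false

namespace CfsgLib.Sourour

open Module

universe u v

variable {K : Type u} [Field K] {V : Type v} [AddCommGroup V] [Module K V] [FiniteDimensional K V]

/-- A regular unipotent map. -/
def RU (X : Module.End K V) : Prop :=
  (X - 1) ^ finrank K V = 0 ∧ (X - 1) ^ (finrank K V - 1) ≠ 0

/-- A factorisation that extends in both directions. -/
def Good (S : Module.End K V) (u : V →ₗ[K] K) (w : V) : Prop :=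
  ∃ X Y : Module.End K V, RU X ∧ RU Y ∧ S = X * Y ∧ ((X - 1) ^ (finrank K V - 1)) w ≠ 0 ∧
    u.comp ((Y - 1) ^ (finrank K V - 1)) ≠ 0

variable (φ : V →ₗ[K] K) (v : V) (hv : φ v = 1)

/-- The projection to `ker φ` along `v`. -/
def proj : V →ₗ[K] LinearMap.ker φ :=
  (LinearMap.id - φ.smulRight v).codRestrict _ fun x => by simp [hv]

theorem coe_proj (x : V) : ((proj φ v hv x : LinearMap.ker φ) : V) = x - φ x • v := rfl

theorem proj_coe (z : LinearMap.ker φ) : proj φ v hv z = z := by
  apply Subtype.ext
  rw [coe_proj, LinearMap.mem_ker.1 z.2, zero_smul, sub_zero]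

theorem proj_self : proj φ v hv v = 0 := by
  apply Subtype.ext
  simp [coe_proj, hv]

/-- Extension of an endomorphism of `ker φ` sending `v` to `a`. -/
def ext (X : Module.End K (LinearMap.ker φ)) (a : V) : Module.End K V :=
  φ.smulRight a + (LinearMap.ker φ).subtype ∘ₗ X ∘ₗ proj φ v hv

theorem ext_apply (X : Module.End K (LinearMap.ker φ)) (a x : V) :
    ext φ v hv X a x = φ x • a + (X (proj φ v hv x) : V) := rfl

theorem ext_coe (X : Module.End K (LinearMap.ker φ)) (a : V) (z : LinearMap.ker φ) :
    ext φ v hv X a z = (X z : V) := by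
  rw [ext_apply, proj_coe, LinearMap.mem_ker.1 z.2, zero_smul, zero_add]

theorem ext_self (X : Module.End K (LinearMap.ker φ)) (a : V) : ext φ v hv X a v = a := by
  rw [ext_apply, proj_self, map_zero, hv]
  simp

include hv in
theorem ext_eq {f g : Module.End K V} (h1 : ∀ z : LinearMap.ker φ, f z = g z) (h2 : f v = g v) :
    f = g := by
  refine LinearMap.ext fun x => ?_
  have hx : x = (proj φ v hv x : V) + φ x • v := by rw [coe_proj, sub_add_cancel]
  rw [hx, map_add, map_add, map_smul, map_smul, h1, h2]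

include hv in
theorem finrank_eq_succ : finrank K V = finrank K (LinearMap.ker φ) + 1 := by
  have h : LinearMap.range φ = ⊤ := LinearMap.range_eq_top.2 fun c =>
    ⟨c • v, by rw [map_smul, hv, smul_eq_mul, mul_one]⟩
  rw [← LinearMap.finrank_range_add_finrank_ker φ, h, finrank_top, finrank_self, add_comm]

theorem lower_pow (X : Module.End K (LinearMap.ker φ)) (c : LinearMap.ker φ) :
    ∀ (k : ℕ) (x : V), ((ext φ v hv X (v + c) - 1) ^ (k + 1)) x =
      (((X - 1) ^ k) (φ x • c + (X - 1) (proj φ v hv x)) : V)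
  | 0, x => by
    simp only [zero_add, pow_one, LinearMap.sub_apply, Module.End.one_apply, ext_apply, pow_zero]
    rw [Submodule.coe_add, Submodule.coe_smul, Submodule.coe_sub, coe_proj, smul_add]
    abel
  | k + 1, x => by
    rw [pow_succ' _ (k + 1), Module.End.mul_apply, lower_pow X c k, pow_succ', Module.End.mul_apply]
    simp only [LinearMap.sub_apply, Module.End.one_apply, ext_coe]
    rfl

/-- Lower extensions of regular unipotent maps. -/
theorem lower_ru (X : Module.End K (LinearMap.ker φ)) (c : LinearMap.ker φ) (hX : RU X)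
    (hc : ((X - 1) ^ (finrank K (LinearMap.ker φ) - 1)) c ≠ 0) :
    RU (ext φ v hv X (v + c)) ∧
      ∀ w : V, φ w ≠ 0 → ((ext φ v hv X (v + c) - 1) ^ (finrank K V - 1)) w ≠ 0 := by
  have hd := finrank_eq_succ φ v hv
  obtain ⟨n, hn⟩ : ∃ n, finrank K (LinearMap.ker φ) = n + 1 := by
    have : finrank K (LinearMap.ker φ) ≠ 0 := by
      intro h0
      haveI := (finrank_zero_iff (R := K)).1 h0
      exact hc (Subsingleton.elim _ _)
    exact ⟨_, (Nat.succ_pred_eq_of_ne_zero this).symm⟩
  rw [RU, hn] at hX
  rw [hn] at hc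
  simp only [Nat.add_sub_cancel] at hX hc
  have key : ∀ w : V, φ w ≠ 0 → ((ext φ v hv X (v + c) - 1) ^ (n + 1)) w ≠ 0 := by
    intro w hw h0
    rw [lower_pow, map_add, map_smul, ← Module.End.mul_apply, ← pow_succ, hX.1] at h0
    simp only [LinearMap.zero_apply, add_zero, ZeroMemClass.coe_eq_zero] at h0
    exact hc ((smul_eq_zero.1 h0).resolve_left hw)
  rw [RU, hd, hn]
  simp only [Nat.add_sub_cancel]
  refine ⟨⟨LinearMap.ext fun x => ?_, fun h0 => key v (by rw [hv]; exact one_ne_zero) ?_⟩, key⟩
  · rw [lower_pow, hX.1]; simp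
  · rw [h0]; rfl

/-- The upper extension. -/
def upper (Y : Module.End K (LinearMap.ker φ)) (f : LinearMap.ker φ →ₗ[K] K) : Module.End K V :=
  ext φ v hv Y v + (f ∘ₗ proj φ v hv).smulRight v

theorem upper_coe (Y : Module.End K (LinearMap.ker φ)) (f : LinearMap.ker φ →ₗ[K] K)
    (z : LinearMap.ker φ) : upper φ v hv Y f z = f z • v + (Y z : V) := by
  rw [upper, LinearMap.add_apply, ext_coe]
  simp [proj_coe, add_comm]

theorem upper_self (Y : Module.End K (LinearMap.ker φ)) (f : LinearMap.ker φ →ₗ[K] K) :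
    upper φ v hv Y f v = v := by
  rw [upper, LinearMap.add_apply, ext_self]
  simp [proj_self]

theorem upper_pow (Y : Module.End K (LinearMap.ker φ)) (f : LinearMap.ker φ →ₗ[K] K) :
    ∀ (k : ℕ) (x : V), ((upper φ v hv Y f - 1) ^ (k + 1)) x =
      f (((Y - 1) ^ k) (proj φ v hv x)) • v + (((Y - 1) ^ (k + 1)) (proj φ v hv x) : V)
  | 0, x => by
    simp only [zero_add, pow_one, pow_zero, Module.End.one_apply, LinearMap.sub_apply, upper,
      LinearMap.add_apply, ext_apply, LinearMap.smulRight_apply, LinearMap.comp_apply]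
    rw [Submodule.coe_sub, coe_proj]
    abel
  | k + 1, x => by
    rw [pow_succ' _ (k + 1), Module.End.mul_apply, upper_pow Y f k, map_add, map_smul,
      LinearMap.sub_apply, LinearMap.sub_apply, Module.End.one_apply, Module.End.one_apply,
      upper_self, upper_coe, sub_self, smul_zero, zero_add, add_sub_assoc,
      pow_succ' _ (k + 1), Module.End.mul_apply, LinearMap.sub_apply, Module.End.one_apply]
    rfl

/-- Upper extensions of regular unipotent maps. -/
theorem upper_ru (Y : Module.End K (LinearMap.ker φ)) (f : LinearMap.ker φ →ₗ[K] K) (hY : RU Y)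
    (hf : f.comp ((Y - 1) ^ (finrank K (LinearMap.ker φ) - 1)) ≠ 0) :
    RU (upper φ v hv Y f) ∧
      ∀ u : V →ₗ[K] K, u v ≠ 0 → u.comp ((upper φ v hv Y f - 1) ^ (finrank K V - 1)) ≠ 0 := by
  have hd := finrank_eq_succ φ v hv
  obtain ⟨n, hn⟩ : ∃ n, finrank K (LinearMap.ker φ) = n + 1 := by
    have : finrank K (LinearMap.ker φ) ≠ 0 := by
      intro h0
      haveI := (finrank_zero_iff (R := K)).1 h0
      refine hf (LinearMap.ext fun x => ?_)
      rw [Subsingleton.elim x 0, map_zero, map_zero]
    exact ⟨_, (Nat.succ_pred_eq_of_ne_zero this).symm⟩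
  rw [RU, hn] at hY
  rw [hn] at hf
  simp only [Nat.add_sub_cancel] at hY hf
  have key : ∀ u : V →ₗ[K] K, u v ≠ 0 → u.comp ((upper φ v hv Y f - 1) ^ (n + 1)) ≠ 0 := by
    intro u hu h0
    refine hf (LinearMap.ext fun z => ?_)
    have h1 := LinearMap.congr_fun h0 (z : V)
    rw [LinearMap.comp_apply, upper_pow, hY.1, proj_coe] at h1
    simp only [LinearMap.zero_apply, ZeroMemClass.coe_zero, add_zero, map_smul, smul_eq_mul,
      mul_eq_zero] at h1
    exact h1.resolve_right hu
  rw [RU, hd, hn]
  simp only [Nat.add_sub_cancel]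
  refine ⟨⟨LinearMap.ext fun x => ?_, fun h0 => key φ (by rw [hv]; exact one_ne_zero) ?_⟩, key⟩
  · rw [upper_pow, pow_succ' _ (n + 1), hY.1, mul_zero]; simp
  · rw [h0]; exact LinearMap.comp_zero φ

theorem ru_one_dim (h1 : finrank K V = 1) : RU (1 : Module.End K V) := by
  rw [RU, h1]
  refine ⟨by simp, ?_⟩
  simp only [Nat.sub_self, pow_zero]
  haveI : Nontrivial V := Module.nontrivial_of_finrank_pos (R := K) (by omega)
  exact one_ne_zero

/-- In a basis a regular unipotent map is the full Jordan block. -/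
theorem exists_basis {X : Module.End K V} (hX : RU X) :
    ∃ b : Module.Basis (Fin (finrank K V)) K V, ∀ i,
      X (b i) = b i + if h : 0 < i.val then b ⟨i.val - 1, by omega⟩ else 0 := by
  classical
  obtain ⟨n, hn⟩ : ∃ n, finrank K V = n := ⟨_, rfl⟩
  rw [RU, hn] at hX
  obtain ⟨w, hw⟩ : ∃ w, ((X - 1) ^ (n - 1)) w ≠ 0 := by
    by_contra h
    push Not at h
    exact hX.2 (LinearMap.ext h)
  let f : Fin (finrank K V) → V := fun i => ((X - 1) ^ (n - 1 - i.val)) w
  have hli : LinearIndependent K f := by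
    rw [Fintype.linearIndependent_iff]
    intro g hg
    by_contra hne
    push Not at hne
    obtain ⟨i, hi, hmax⟩ := ({i | g i ≠ 0} : Finset (Fin (finrank K V))).exists_maximal
      (by obtain ⟨i, hi⟩ := hne; exact ⟨i, by simpa using hi⟩)
    simp only [Finset.mem_filter, Finset.mem_univ, true_and] at hi hmax
    have hin : i.val < n := hn ▸ i.2
    have h := congrArg (fun y => ((X - 1) ^ i.val : Module.End K V) y) hg
    rw [map_sum, map_zero, Finset.sum_eq_single i] at h
    · rw [map_smul, ← Module.End.mul_apply, ← pow_add, show i.val + (n - 1 - i.val) = n - 1 by omega,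
        smul_eq_zero] at h
      exact hw (h.resolve_left hi)
    · intro j _ hji
      rw [map_smul, ← Module.End.mul_apply, ← pow_add]
      rcases lt_or_gt_of_ne hji with hlt | hgt
      · have : j.val < i.val := hlt
        rw [pow_eq_zero_of_le (show n ≤ i.val + (n - 1 - j.val) by omega) hX.1, LinearMap.zero_apply,
          smul_zero]
      · have : g j = 0 := by
          by_contra hj
          exact absurd (hmax hj hgt.le) (not_le.2 hgt)
        rw [this, zero_smul]
    · exact fun h => absurd (Finset.mem_univ i) h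
  have hpos : 0 < n := by
    rcases Nat.eq_zero_or_pos n with h0 | h0
    · haveI := (finrank_zero_iff (R := K)).1 (hn.trans h0)
      exact absurd (Subsingleton.elim _ _) hw
    · exact h0
  haveI : Nonempty (Fin (finrank K V)) := ⟨⟨0, by omega⟩⟩
  refine ⟨basisOfLinearIndependentOfCardEqFinrank hli (Fintype.card_fin _), fun i => ?_⟩
  simp only [coe_basisOfLinearIndependentOfCardEqFinrank]
  have hin : i.val < n := hn ▸ i.2
  have h1 : X (f i) = f i + ((X - 1) ^ (n - 1 - i.val + 1)) w := by
    rw [pow_succ', Module.End.mul_apply, LinearMap.sub_apply, Module.End.one_apply,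
      add_sub_cancel]
  rw [h1]
  congr 1
  split_ifs with h
  · show _ = ((X - 1) ^ (n - 1 - (i.val - 1))) w
    rw [show n - 1 - i.val + 1 = n - 1 - (i.val - 1) by omega]
  · rw [show n - 1 - i.val + 1 = n by omega, hX.1, LinearMap.zero_apply]

end CfsgLib.Sourour
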